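import Cfsg.Prelude.Def_Classical
import Cfsg.Agent.H721.SR.Base
import Cfsg.Agent.LieClassical.SympTransvection
import Cfsg.Agent.LieClassical.SympCenter

/-!
# S4971, row SR-PSP3: in `PSp_{2m}(q)`, `q ≡ 3 mod 4`, a transvection is not real (helper893)
-/

set_option autoImplicit false

namespace Cfsg.Agent.H893.SR

open Matrix Cfsg.Agent.H721.SR Cfsg.Agent.LieClassical Cfsg.Agent.LieClassical.SympTransvection

theorem om_mulVec {l F : Type*} [DecidableEq l] [Fintype l] [Field F] (A : symplecticGroup l F) (u v : l ⊕ l → F) :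
    om (A.1 *ᵥ u) (A.1 *ᵥ v) = om u v := by
  rw [om_def, om_def, mulVec_mulVec]
  have h1 : (A.1)ᵀ * J l F * A.1 = J l F := SymplecticGroup.mem_iff'.1 A.2
  calc A.1 *ᵥ u ⬝ᵥ ((J l F * A.1) *ᵥ v) = u ⬝ᵥ ((A.1)ᵀ *ᵥ ((J l F * A.1) *ᵥ v)) := by
        rw [dotProduct_mulVec u, vecMul_transpose]
    _ = u ⬝ᵥ (((A.1)ᵀ * J l F * A.1) *ᵥ v) := by rw [mulVec_mulVec, Matrix.mul_assoc]
    _ = u ⬝ᵥ (J l F *ᵥ v) := by rw [h1]

theorem nrel_psp {F : Type} [Field F] [Fintype F] {m : ℕ} (hm : 1 ≤ m) (hF : Fintype.card F % 4 = 3) :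
    NRel (Cfsg.PSp m F) := by
  classical
  let u : Fin m ⊕ Fin m → F := Pi.single (Sum.inl ⟨0, by omega⟩) 1
  have hu : u ≠ 0 := by
    intro h
    have := congrFun h (Sum.inl ⟨0, by omega⟩)
    simp [u] at this
  refine ⟨QuotientGroup.mk (tvS 1 u), fun hc => ?_⟩
  obtain ⟨X, hX⟩ := isConj_iff.1 hc
  obtain ⟨x, rfl⟩ := QuotientGroup.mk_surjective X
  have h1 : ((x * tvS 1 u * x⁻¹ * tvS 1 u : symplecticGroup (Fin m) F) : Cfsg.PSp m F) = 1 := by
    rw [QuotientGroup.mk_mul, QuotientGroup.mk_mul, QuotientGroup.mk_mul, QuotientGroup.mk_inv, hX, inv_mul_cancel]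
  rw [QuotientGroup.eq_one_iff] at h1
  obtain ⟨a, ha⟩ := (SympCenter.mem_center_iff m _).1 h1
  set y : symplecticGroup (Fin m) F := x⁻¹ with hy
  have h2 : (tvS 1 u * y * tvS 1 u).1 = a • y.1 := by
    have h3 : tvS 1 u * y * tvS 1 u = y * (x * tvS 1 u * y * tvS 1 u) := by
      rw [hy]; group
    rw [h3]
    show y.1 * (x * tvS 1 u * y * tvS 1 u).1 = _
    rw [ha]
    simp
  have h4 : ∀ v, tv 1 u *ᵥ (y.1 *ᵥ (tv 1 u *ᵥ v)) = a • (y.1 *ᵥ v) := by
    intro v
    have h5 : (tvS 1 u * y * tvS 1 u).1 = tv 1 u * y.1 * tv 1 u := rfl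
    rw [← smul_mulVec, ← h2, h5, mulVec_mulVec, mulVec_mulVec]
  set w := y.1 *ᵥ u with hw
  have hw0 : w ≠ 0 := by
    intro h0
    obtain ⟨v, hv⟩ := exists_om_ne_zero hu
    apply hv
    rw [← om_mulVec y, ← hw, h0]
    simp [om_def]
  have h6 : w + om w u • u = a • w := by
    have := h4 u
    rw [tv_mulVec 1 u u, om_self, mul_zero, zero_smul, add_zero, tv_mulVec, one_mul] at this
    exact this
  have h7 : om w u = 0 := by
    have h8 := congrArg (om w) h6
    rw [om_add_right, om_smul_right, om_smul_right, om_self, zero_add, mul_zero] at h8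
    exact mul_self_eq_zero.1 h8
  have ha1 : a = 1 := by
    rw [h7, zero_smul, add_zero] at h6
    by_contra hne
    apply hw0
    have h9 : (a - 1) • w = 0 := by
      rw [sub_smul, one_smul, ← h6, sub_self]
    exact (smul_eq_zero.1 h9).resolve_left (sub_ne_zero.2 hne)
  obtain ⟨v, hv⟩ := exists_om_ne_zero hu
  have hv' : om v u ≠ 0 := by
    rw [om_swap]
    exact neg_ne_zero.2 hv
  have h10 : om v u • w + om (y.1 *ᵥ v) u • u = 0 := by
    have := h4 v
    rw [ha1, one_smul, tv_mulVec 1 u v, mulVec_add, mulVec_smul, ← hw, tv_mulVec, om_add_left, om_smul_left, h7,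
      mul_zero, add_zero, one_mul, one_mul, add_assoc] at this
    exact add_eq_left.1 this
  have h11 : om (y.1 *ᵥ v) w = om v u := om_mulVec y v u
  have h12 : om v u * om v u + om (y.1 *ᵥ v) u * om (y.1 *ᵥ v) u = 0 := by
    have := congrArg (om (y.1 *ᵥ v)) h10
    rw [om_add_right, om_smul_right, om_smul_right, h11] at this
    rw [this]
    simp [om_def]
  have h13 : IsSquare (-1 : F) := by
    refine ⟨om (y.1 *ᵥ v) u * (om v u)⁻¹, ?_⟩
    field_simp
    linear_combination -h12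
  exact (FiniteField.isSquare_neg_one_iff.1 h13) hF

end Cfsg.Agent.H893.SR
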