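import Cfsg.Agent.ChevalleyStructure.D4U
import Cfsg.Agent.H721.SR.Base

/-!
# `³D₄(q)`, `q` even: the elements of the Sylow 2-subgroup are strongly real (helper893, TEAM SR, task 3862 part 1)
-/

set_option autoImplicit false

namespace Cfsg.Agent.H893.SR.Tri

open Cfsg.Lie Cfsg.Agent.H721.SR
open Cfsg.Agent.ChevalleyStructure.D4Fixed (sig coe_sig fix mem_fix twisted_le_fix twisted_induction)
open Cfsg.Agent.ChevalleyStructure.D4Comm
open Cfsg.Agent.ChevalleyStructure.D4CommTab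
open Cfsg.Agent.ChevalleyStructure.D4Pos
open Cfsg.Agent.ChevalleyStructure.TwistedU
open Cfsg.Agent.ChevalleyStructure.D4U
open scoped commutatorElement

section
variable {K : Type*} [Field K]

/-- `α` -/
abbrev A (a : K) : GL chevD4.Idx K := xG 14 a
/-- `β` -/
def B (φ : K →+* K) (b : K) : GL chevD4.Idx K := xG 18 b * xG 13 (φ b) * xG 12 (φ (φ b))
/-- `α + β` -/
def C (φ : K →+* K) (c : K) : GL chevD4.Idx K := xG 19 c * xG 16 (φ c) * xG 15 (φ (φ c))
/-- `α + 2β` -/
def D (φ : K →+* K) (d : K) : GL chevD4.Idx K := xG 21 d * xG 17 (φ d) * xG 20 (φ (φ d))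
/-- `α + 3β` -/
abbrev E (e : K) : GL chevD4.Idx K := xG 22 e
/-- `2α + 3β` -/
abbrev Z (f : K) : GL chevD4.Idx K := xG 23 f

/-- the trace -/
def tr (φ : K →+* K) (x : K) : K := x + φ x + φ (φ x)

variable {φ : K →+* K}

theorem neg2 (h2 : ∀ x : K, x + x = 0) (x : K) : -x = x := neg_eq_of_add_eq_zero_left (h2 x)

theorem elt_eq2 (h2 : ∀ x : K, x + x = 0) (a b c d e f : K) :
    elt φ a b c d e f = A a * B φ b * C φ c * D φ d * E e * Z f := by
  rw [elt_eq, neg2 h2, neg2 h2, neg2 h2]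
  rfl

/-- the check for `sw` -/
def swB (r s k : ℕ) : Bool :=
  decide (12 ≤ r) && decide (r < 24) && decide (12 ≤ s) && decide (s < 24) && decide (s ≠ r) &&
    (decide (cm r s = some (k, 1)) || decide (cm r s = some (k, -1))) &&
    (decide (12 ≤ r) && decide (r < 24) && decide (12 ≤ k) && decide (k < 24) && decide (k ≠ r) && (cm r k).isNone) &&
    (decide (12 ≤ s) && decide (s < 24) && decide (12 ≤ k) && decide (k < 24) && decide (k ≠ s) && (cm s k).isNone)

theorem sw (h2 : ∀ x : K, x + x = 0) {r s k : ℕ} (h : swB r s k = true) (t u : K) :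
    (xG r t : GL chevD4.Idx K) * xG s u = xG s u * xG r t * xG k (t * u) := by
  unfold swB at h
  rw [Bool.and_eq_true, Bool.and_eq_true] at h
  obtain ⟨⟨h1, h3⟩, h4⟩ := h
  have c1 := xG_commute h3 t (t * u)
  have c2 := xG_commute h4 u (t * u)
  simp only [Bool.and_eq_true, Bool.or_eq_true, decide_eq_true_eq] at h1
  obtain ⟨⟨⟨⟨⟨g1, g2⟩, g3⟩, g4⟩, g5⟩, g6⟩ := h1
  have h5 := xG_comm g1 g2 g3 g4 g5 t u
  have h6 : cval r s t u = (xG k (t * u) : GL chevD4.Idx K) := by
    unfold cval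
    rcases g6 with g6 | g6 <;> rw [g6]
    · simp
    · simp [neg2 h2]
  rw [h6, commutatorElement_def, mul_inv_eq_iff_eq_mul, mul_inv_eq_iff_eq_mul] at h5
  rw [h5, ← c2.eq, mul_assoc, mul_assoc, ← c1.eq]

/-! ### products -/

theorem mulL {G : Type*} [Group G] {z : K → G} (zadd : ∀ s t, z (s + t) = z s * z t) {p p' q : G} {t t' : K}
    (h : p * q = q * p * z t) (h' : p' * q = q * p' * z t') (hc : Commute (z t) p') :
    (p * p') * q = q * (p * p') * z (t + t') := by
  rw [mul_assoc, h', ← mul_assoc, ← mul_assoc, h, zadd, mul_assoc (q * p) (z t) p', hc.eq]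
  group

theorem mulR {G : Type*} [Group G] {z : K → G} (zadd : ∀ s t, z (s + t) = z s * z t) {p q q' : G} {t t' : K}
    (h : p * q = q * p * z t) (h' : p * q' = q' * p * z t') (hc : Commute (z t) q') (hz : Commute (z t) (z t')) :
    p * (q * q') = (q * q') * p * z (t + t') := by
  rw [← mul_assoc, h, mul_assoc (q * p) (z t) q', hc.eq, ← mul_assoc, mul_assoc q p q', h', zadd, hz.eq]
  group

theorem eA (s t : K) : (E (s + t) : GL chevD4.Idx K) = E s * E t := xG_add 22 s t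
theorem aA (s t : K) : (A (s + t) : GL chevD4.Idx K) = A s * A t := xG_add 14 s t
theorem zA (s t : K) : (Z (s + t) : GL chevD4.Idx K) = Z s * Z t := xG_add 23 s t

/-- commuting of positive root elements -/
theorem cc {r s : ℕ} (h : (decide (12 ≤ r) && decide (r < 24) && decide (12 ≤ s) && decide (s < 24) &&
    decide (s ≠ r) && (cm r s).isNone) = true) (t u : K) : Commute (xG r t : GL chevD4.Idx K) (xG s u) :=
  xG_commute h t u

/-- `B` and `D` -/
theorem BD (h2 : ∀ x : K, x + x = 0) (hK3 : ∀ t : K, φ (φ (φ t)) = t) (b d : K) :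
    B φ b * D φ d = D φ d * B φ b * E (tr φ (b * φ d)) := by
  have z0 : ∀ p q : GL chevD4.Idx K, Commute p q → p * q = q * p * E (0 : K) := fun p q h => by
    rw [E, xG_zero, mul_one, h.eq]
  have c18 : ∀ s t : K, Commute (E s) (xG 18 t) := fun s t => cc (by decide +kernel) s t
  have c13 : ∀ s t : K, Commute (E s) (xG 13 t) := fun s t => cc (by decide +kernel) s t
  have c12 : ∀ s t : K, Commute (E s) (xG 12 t) := fun s t => cc (by decide +kernel) s t
  have c21 : ∀ s t : K, Commute (E s) (xG 21 t) := fun s t => cc (by decide +kernel) s t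
  have c17 : ∀ s t : K, Commute (E s) (xG 17 t) := fun s t => cc (by decide +kernel) s t
  have c20 : ∀ s t : K, Commute (E s) (xG 20 t) := fun s t => cc (by decide +kernel) s t
  have cE : ∀ s t : K, Commute (E s) (E t) := fun s t => by
    rw [commute_iff_eq, E, E, ← xG_add, ← xG_add, add_comm]
  have e18 : xG 18 b * D φ d = D φ d * xG 18 b * E (0 + b * φ d + 0) :=
    mulR eA (mulR eA (z0 _ _ (cc (by decide +kernel) _ _)) (sw h2 (by decide +kernel) _ _) (c17 _ _) (cE _ _))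
      (z0 _ _ (cc (by decide +kernel) _ _)) (c20 _ _) (cE _ _)
  have e13 : xG 13 (φ b) * D φ d = D φ d * xG 13 (φ b) * E (0 + 0 + φ b * φ (φ d)) :=
    mulR eA (mulR eA (z0 _ _ (cc (by decide +kernel) _ _)) (z0 _ _ (cc (by decide +kernel) _ _)) (c17 _ _)
      (cE _ _)) (sw h2 (by decide +kernel) _ _) (c20 _ _) (cE _ _)
  have e12 : xG 12 (φ (φ b)) * D φ d = D φ d * xG 12 (φ (φ b)) * E (φ (φ b) * d + 0 + 0) :=
    mulR eA (mulR eA (sw h2 (by decide +kernel) _ _) (z0 _ _ (cc (by decide +kernel) _ _)) (c17 _ _)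
      (cE _ _)) (z0 _ _ (cc (by decide +kernel) _ _)) (c20 _ _) (cE _ _)
  have := mulL eA (mulL eA e18 e13 (c13 _ _)) e12 (c12 _ _)
  unfold B
  rw [this]
  congr 2
  unfold tr
  rw [map_mul, map_mul, hK3]
  ring

/-- `C` and `D` -/
theorem CD (h2 : ∀ x : K, x + x = 0) (hK3 : ∀ t : K, φ (φ (φ t)) = t) (b d : K) :
    C φ b * D φ d = D φ d * C φ b * Z (tr φ (b * φ d)) := by
  have z0 : ∀ p q : GL chevD4.Idx K, Commute p q → p * q = q * p * Z (0 : K) := fun p q h => by
    rw [Z, xG_zero, mul_one, h.eq]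
  have c18 : ∀ s t : K, Commute (Z s) (xG 19 t) := fun s t => cc (by decide +kernel) s t
  have c13 : ∀ s t : K, Commute (Z s) (xG 16 t) := fun s t => cc (by decide +kernel) s t
  have c12 : ∀ s t : K, Commute (Z s) (xG 15 t) := fun s t => cc (by decide +kernel) s t
  have c21 : ∀ s t : K, Commute (Z s) (xG 21 t) := fun s t => cc (by decide +kernel) s t
  have c17 : ∀ s t : K, Commute (Z s) (xG 17 t) := fun s t => cc (by decide +kernel) s t
  have c20 : ∀ s t : K, Commute (Z s) (xG 20 t) := fun s t => cc (by decide +kernel) s t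
  have cE : ∀ s t : K, Commute (Z s) (Z t) := fun s t => by
    rw [commute_iff_eq, Z, Z, ← xG_add, ← xG_add, add_comm]
  have e18 : xG 19 b * D φ d = D φ d * xG 19 b * Z (0 + b * φ d + 0) :=
    mulR zA (mulR zA (z0 _ _ (cc (by decide +kernel) _ _)) (sw h2 (by decide +kernel) _ _) (c17 _ _) (cE _ _))
      (z0 _ _ (cc (by decide +kernel) _ _)) (c20 _ _) (cE _ _)
  have e13 : xG 16 (φ b) * D φ d = D φ d * xG 16 (φ b) * Z (0 + 0 + φ b * φ (φ d)) :=
    mulR zA (mulR zA (z0 _ _ (cc (by decide +kernel) _ _)) (z0 _ _ (cc (by decide +kernel) _ _)) (c17 _ _)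
      (cE _ _)) (sw h2 (by decide +kernel) _ _) (c20 _ _) (cE _ _)
  have e12 : xG 15 (φ (φ b)) * D φ d = D φ d * xG 15 (φ (φ b)) * Z (φ (φ b) * d + 0 + 0) :=
    mulR zA (mulR zA (sw h2 (by decide +kernel) _ _) (z0 _ _ (cc (by decide +kernel) _ _)) (c17 _ _)
      (cE _ _)) (z0 _ _ (cc (by decide +kernel) _ _)) (c20 _ _) (cE _ _)
  have := mulL zA (mulL zA e18 e13 (c13 _ _)) e12 (c12 _ _)
  unfold C
  rw [this]
  congr 2
  unfold tr
  rw [map_mul, map_mul, hK3]
  ring

theorem mul3 {G : Type*} [Group G] {p₁ p₂ p₃ q₁ q₂ q₃ : G} (h31 : Commute p₃ q₁) (h21 : Commute p₂ q₁)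
    (h32 : Commute p₃ q₂) : (p₁ * p₂ * p₃) * (q₁ * q₂ * q₃) = (p₁ * q₁) * (p₂ * q₂) * (p₃ * q₃) := by
  calc (p₁ * p₂ * p₃) * (q₁ * q₂ * q₃) = p₁ * (p₂ * (p₃ * q₁) * q₂ * q₃) := by group
    _ = p₁ * ((p₂ * q₁) * (p₃ * q₂) * q₃) := by rw [h31.eq]; group
    _ = (p₁ * q₁) * (p₂ * q₂) * (p₃ * q₃) := by rw [h21.eq, h32.eq]; group

theorem B_add (b b' : K) : B φ (b + b') = B φ b * B φ b' := by
  unfold B
  rw [mul3 (cc (by decide +kernel) _ _) (cc (by decide +kernel) _ _) (cc (by decide +kernel) _ _), map_add, map_add,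
    xG_add, xG_add, xG_add]

theorem C_add (b b' : K) : C φ (b + b') = C φ b * C φ b' := by
  unfold C
  rw [mul3 (cc (by decide +kernel) _ _) (cc (by decide +kernel) _ _) (cc (by decide +kernel) _ _), map_add, map_add,
    xG_add, xG_add, xG_add]

theorem D_add (b b' : K) : D φ (b + b') = D φ b * D φ b' := by
  unfold D
  rw [mul3 (cc (by decide +kernel) _ _) (cc (by decide +kernel) _ _) (cc (by decide +kernel) _ _), map_add, map_add,
    xG_add, xG_add, xG_add]

theorem B_zero : B φ (0 : K) = 1 := by simp [B, xG_zero]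
theorem C_zero : C φ (0 : K) = 1 := by simp [C, xG_zero]
theorem D_zero : D φ (0 : K) = 1 := by simp [D, xG_zero]

theorem A_sq (h2 : ∀ x : K, x + x = 0) (a : K) : A a * A a = 1 := by rw [← xG_add, h2, xG_zero]
theorem E_sq (h2 : ∀ x : K, x + x = 0) (a : K) : E a * E a = 1 := by rw [← xG_add, h2, xG_zero]
theorem Z_sq (h2 : ∀ x : K, x + x = 0) (a : K) : Z a * Z a = 1 := by rw [← xG_add, h2, xG_zero]
theorem B_sq (h2 : ∀ x : K, x + x = 0) (a : K) : B φ a * B φ a = 1 := by rw [← B_add, h2, B_zero]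
theorem C_sq (h2 : ∀ x : K, x + x = 0) (a : K) : C φ a * C φ a = 1 := by rw [← C_add, h2, C_zero]
theorem D_sq (h2 : ∀ x : K, x + x = 0) (a : K) : D φ a * D φ a = 1 := by rw [← D_add, h2, D_zero]

theorem com3 {G : Type*} [Group G] {x p₁ p₂ p₃ : G} (h1 : Commute x p₁) (h2 : Commute x p₂) (h3 : Commute x p₃) :
    Commute x (p₁ * p₂ * p₃) := (h1.mul_right h2).mul_right h3

theorem AD (a d : K) : Commute (A a) (D φ d) :=
  com3 (cc (by decide +kernel) _ _) (cc (by decide +kernel) _ _) (cc (by decide +kernel) _ _)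
theorem AZ (a d : K) : Commute (A a) (Z d) := cc (by decide +kernel) _ _
theorem BE (b d : K) : Commute (E b) (B φ d) :=
  com3 (cc (by decide +kernel) _ _) (cc (by decide +kernel) _ _) (cc (by decide +kernel) _ _)
theorem BZ (b d : K) : Commute (Z b) (B φ d) :=
  com3 (cc (by decide +kernel) _ _) (cc (by decide +kernel) _ _) (cc (by decide +kernel) _ _)
theorem CE (b d : K) : Commute (E b) (C φ d) :=
  com3 (cc (by decide +kernel) _ _) (cc (by decide +kernel) _ _) (cc (by decide +kernel) _ _)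
theorem CZ (b d : K) : Commute (Z b) (C φ d) :=
  com3 (cc (by decide +kernel) _ _) (cc (by decide +kernel) _ _) (cc (by decide +kernel) _ _)
theorem DE (b d : K) : Commute (E b) (D φ d) :=
  com3 (cc (by decide +kernel) _ _) (cc (by decide +kernel) _ _) (cc (by decide +kernel) _ _)
theorem DZ (b d : K) : Commute (Z b) (D φ d) :=
  com3 (cc (by decide +kernel) _ _) (cc (by decide +kernel) _ _) (cc (by decide +kernel) _ _)
theorem EZ (b d : K) : Commute (Z b) (E d) := cc (by decide +kernel) _ _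
theorem AC (a d : K) : Commute (A a) (C φ d) :=
  com3 (cc (by decide +kernel) _ _) (cc (by decide +kernel) _ _) (cc (by decide +kernel) _ _)

/-! ### modulo the group `V` of the roots `α + 2β, α + 3β, 2α + 3β` -/

/-- the list of the roots of `V` -/
def LV : List ℕ := [21, 17, 20, 22, 23]

/-- the group `V` -/
abbrev V (K : Type*) [Field K] : Subgroup (GL chevD4.Idx K) := RS K LV

theorem conj_V {r : ℕ} (h : goodB (r :: LV) = true) (t : K) {v : GL chevD4.Idx K} (hv : v ∈ V K) :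
    xG r t * v * (xG r t)⁻¹ ∈ V K :=
  conj_mem ((good_cons xG).1 (good_of_goodB (r :: LV) h)).1 t hv

theorem norm_V {r : ℕ} (h : goodB (r :: LV) = true) (t : K) :
    (xG r t : GL chevD4.Idx K) ∈ Subgroup.normalizer (V K : Set (GL chevD4.Idx K)) := by
  rw [Subgroup.mem_normalizer_iff]
  intro v
  refine ⟨fun hv => conj_V h t hv, fun hv => ?_⟩
  have := conj_V h (-t) hv
  rw [xG_neg] at this
  have e : (xG r t)⁻¹ * (xG r t * v * (xG r t)⁻¹) * (xG r t)⁻¹⁻¹ = v := by group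
  rwa [e] at this

/-- congruence modulo `V` -/
def Eqv (g h : GL chevD4.Idx K) : Prop := g⁻¹ * h ∈ V K

theorem Eqv.refl (g : GL chevD4.Idx K) : Eqv g g := by unfold Eqv; rw [inv_mul_cancel]; exact one_mem _
theorem Eqv.symm {g h : GL chevD4.Idx K} (e : Eqv g h) : Eqv h g := by
  unfold Eqv at e ⊢
  have := inv_mem e
  rwa [mul_inv_rev, inv_inv] at this
theorem Eqv.trans {g h k : GL chevD4.Idx K} (e : Eqv g h) (e' : Eqv h k) : Eqv g k := by
  unfold Eqv at e e' ⊢
  have := mul_mem e e'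
  have e2 : g⁻¹ * h * (h⁻¹ * k) = g⁻¹ * k := by group
  rwa [e2] at this
theorem Eqv.mulL {g h : GL chevD4.Idx K} (e : Eqv g h) (k : GL chevD4.Idx K) : Eqv (k * g) (k * h) := by
  unfold Eqv at e ⊢
  have e2 : (k * g)⁻¹ * (k * h) = g⁻¹ * h := by group
  rwa [e2]
theorem Eqv.mulR {g h : GL chevD4.Idx K} (e : Eqv g h) {k : GL chevD4.Idx K}
    (hk : k ∈ Subgroup.normalizer (V K : Set (GL chevD4.Idx K))) : Eqv (g * k) (h * k) := by
  unfold Eqv at e ⊢
  have e2 : (g * k)⁻¹ * (h * k) = k⁻¹ * (g⁻¹ * h) * k⁻¹⁻¹ := by group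
  rw [e2]
  exact (Subgroup.mem_normalizer_iff.1 (inv_mem hk) _).1 e
theorem Eqv.of_comm {g h : GL chevD4.Idx K} (e : ⁅g⁻¹, h⁻¹⁆ ∈ V K) : Eqv (h * g) (g * h) := by
  unfold Eqv
  rw [commutatorElement_def, inv_inv, inv_inv] at e
  have e2 : (h * g)⁻¹ * (g * h) = g⁻¹ * h⁻¹ * g * h := by group
  rwa [e2]

/-- commuting modulo `V` -/
def CV (g h : GL chevD4.Idx K) : Prop := Eqv (g * h) (h * g)

theorem CV.symm {g h : GL chevD4.Idx K} (e : CV g h) : CV h g := Eqv.symm e

theorem CV.mulL {g h k : GL chevD4.Idx K} (e : CV g k) (e' : CV h k)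
    (hh : h ∈ Subgroup.normalizer (V K : Set (GL chevD4.Idx K))) : CV (g * h) k := by
  unfold CV at *
  have h1 : Eqv (g * h * k) (g * (k * h)) := by rw [mul_assoc]; exact Eqv.mulL e' g
  have h2 : Eqv (g * (k * h)) (k * g * h) := by rw [← mul_assoc]; exact Eqv.mulR e hh
  have h3 := h1.trans h2
  rwa [mul_assoc k g h] at h3

/-- the check for `cv` -/
def cvB (r s : ℕ) : Bool :=
  decide (12 ≤ r) && decide (r < 24) && decide (12 ≤ s) && decide (s < 24) && decide (s ≠ r) &&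
    (match cm r s with | none => true | some kc => LV.contains kc.1)

theorem cv {r s : ℕ} (h : cvB r s = true) (t u : K) : CV (xG r t : GL chevD4.Idx K) (xG s u) := by
  unfold cvB at h
  simp only [Bool.and_eq_true, decide_eq_true_eq] at h
  obtain ⟨⟨⟨⟨⟨g1, g2⟩, g3⟩, g4⟩, g5⟩, g6⟩ := h
  refine CV.symm (Eqv.of_comm ?_)
  rw [← xG_neg, ← xG_neg, xG_comm g1 g2 g3 g4 g5]
  unfold cval
  rcases hc : cm r s with _ | kc
  · exact one_mem _
  · rw [hc] at g6
    exact mem_rspan xG (S := {k | k ∈ LV}) (List.contains_iff_mem.1 g6) _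

theorem norm_A (a : K) : A a ∈ Subgroup.normalizer (V K : Set (GL chevD4.Idx K)) := norm_V (by decide +kernel) _
theorem norm_B (a : K) : B φ a ∈ Subgroup.normalizer (V K : Set (GL chevD4.Idx K)) :=
  mul_mem (mul_mem (norm_V (by decide +kernel) _) (norm_V (by decide +kernel) _)) (norm_V (by decide +kernel) _)
theorem norm_C (a : K) : C φ a ∈ Subgroup.normalizer (V K : Set (GL chevD4.Idx K)) :=
  mul_mem (mul_mem (norm_V (by decide +kernel) _) (norm_V (by decide +kernel) _)) (norm_V (by decide +kernel) _)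

theorem cvC {g : GL chevD4.Idx K} (h19 : ∀ t : K, CV (xG 19 t) g) (h16 : ∀ t : K, CV (xG 16 t) g)
    (h15 : ∀ t : K, CV (xG 15 t) g) (c : K) : CV (C φ c) g :=
  ((h19 _).mulL (h16 _) (norm_V (by decide +kernel) _)).mulL (h15 _) (norm_V (by decide +kernel) _)

theorem cvCB (b c : K) : CV (B φ b) (C φ c) := by
  refine CV.symm (cvC (fun t => CV.symm ?_) (fun t => CV.symm ?_) (fun t => CV.symm ?_) c)
  · exact ((cv (by decide +kernel) _ _).mulL (cv (by decide +kernel) _ _) (norm_V (by decide +kernel) _)).mulL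
      (cv (by decide +kernel) _ _) (norm_V (by decide +kernel) _)
  · exact ((cv (by decide +kernel) _ _).mulL (cv (by decide +kernel) _ _) (norm_V (by decide +kernel) _)).mulL
      (cv (by decide +kernel) _ _) (norm_V (by decide +kernel) _)
  · exact ((cv (by decide +kernel) _ _).mulL (cv (by decide +kernel) _ _) (norm_V (by decide +kernel) _)).mulL
      (cv (by decide +kernel) _ _) (norm_V (by decide +kernel) _)

theorem Eqv.mid {g h : GL chevD4.Idx K} (e : Eqv g h) (k : GL chevD4.Idx K) {l : GL chevD4.Idx K}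
    (hl : l ∈ Subgroup.normalizer (V K : Set (GL chevD4.Idx K))) : Eqv (k * g * l) (k * h * l) := (e.mulL k).mulR hl

/-- `B` and `A` modulo `V` -/
theorem eqv_BA (h2 : ∀ x : K, x + x = 0) {a : K} (ha : φ a = a) (b : K) :
    Eqv (B φ b * A a) (A a * B φ b * C φ (a * b)) := by
  have e1 : (xG 12 (φ (φ b)) : GL chevD4.Idx K) * xG 14 a = xG 14 a * xG 12 (φ (φ b)) * xG 15 (φ (φ b) * a) :=
    sw h2 (by decide +kernel) _ _
  have e2 : (xG 13 (φ b) : GL chevD4.Idx K) * xG 14 a = xG 14 a * xG 13 (φ b) * xG 16 (φ b * a) :=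
    sw h2 (by decide +kernel) _ _
  have e3 : (xG 18 b : GL chevD4.Idx K) * xG 14 a = xG 14 a * xG 18 b * xG 19 (b * a) :=
    sw h2 (by decide +kernel) _ _
  have h1 : B φ b * A a = (A a * xG 18 b) * (xG 19 (b * a) * xG 13 (φ b)) *
      (xG 16 (φ b * a) * xG 12 (φ (φ b)) * xG 15 (φ (φ b) * a)) := by
    unfold B
    calc xG 18 b * xG 13 (φ b) * xG 12 (φ (φ b)) * A a = xG 18 b * (xG 13 (φ b) * (xG 12 (φ (φ b)) * xG 14 a)) := by
          group
      _ = (xG 18 b * xG 14 a) * xG 13 (φ b) * xG 16 (φ b * a) * xG 12 (φ (φ b)) * xG 15 (φ (φ b) * a) := by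
          rw [e1, ← mul_assoc (xG 13 (φ b)), ← mul_assoc (xG 13 (φ b)), e2]
          group
      _ = _ := by
          rw [e3]
          group
  have h3 : Eqv ((A a * xG 18 b) * (xG 19 (b * a) * xG 13 (φ b)) *
      (xG 16 (φ b * a) * xG 12 (φ (φ b)) * xG 15 (φ (φ b) * a)))
      ((A a * xG 18 b) * (xG 13 (φ b) * xG 19 (b * a)) *
      (xG 16 (φ b * a) * xG 12 (φ (φ b)) * xG 15 (φ (φ b) * a))) :=
    Eqv.mid (cv (by decide +kernel) _ _) _ (mul_mem (mul_mem (norm_V (by decide +kernel) _)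
      (norm_V (by decide +kernel) _)) (norm_V (by decide +kernel) _))
  have h4 : Eqv ((A a * xG 18 b * xG 13 (φ b)) * ((xG 19 (b * a) * xG 16 (φ b * a)) * xG 12 (φ (φ b))) *
      xG 15 (φ (φ b) * a))
      ((A a * xG 18 b * xG 13 (φ b)) * (xG 12 (φ (φ b)) * (xG 19 (b * a) * xG 16 (φ b * a))) * xG 15 (φ (φ b) * a)) :=
    Eqv.mid (CV.mulL (cv (by decide +kernel) _ _) (cv (by decide +kernel) _ _) (norm_V (by decide +kernel) _)) _
      (norm_V (by decide +kernel) _)
  have h5 : (A a * xG 18 b) * (xG 13 (φ b) * xG 19 (b * a)) *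
      (xG 16 (φ b * a) * xG 12 (φ (φ b)) * xG 15 (φ (φ b) * a)) =
      (A a * xG 18 b * xG 13 (φ b)) * ((xG 19 (b * a) * xG 16 (φ b * a)) * xG 12 (φ (φ b))) * xG 15 (φ (φ b) * a) := by
    group
  have h6 : A a * B φ b * C φ (a * b) =
      (A a * xG 18 b * xG 13 (φ b)) * (xG 12 (φ (φ b)) * (xG 19 (b * a) * xG 16 (φ b * a))) * xG 15 (φ (φ b) * a) := by
    unfold B C
    rw [map_mul, map_mul, ha, ha, mul_comm a b, mul_comm a (φ b), mul_comm a (φ (φ b))]
    group
  rw [h1, h6]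
  rw [← h5] at h4
  exact h3.trans h4

/-- the coordinates modulo `V` -/
def P (φ : K →+* K) (g : GL chevD4.Idx K) (a b c : K) : Prop := Eqv g (A a * B φ b * C φ c)

theorem P.mul (h2 : ∀ x : K, x + x = 0) {g g' : GL chevD4.Idx K} {a b c a' b' c' : K} (h : P φ g a b c)
    (h' : P φ g' a' b' c') (hg' : g' ∈ Subgroup.normalizer (V K : Set (GL chevD4.Idx K))) (ha' : φ a' = a') :
    P φ (g * g') (a + a') (b + b') (a' * b + c + c') := by
  unfold P at *
  have n1 := norm_A (K := K) a'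
  have nB := norm_B (φ := φ) b'
  have nC := norm_C (φ := φ) c'
  have nC2 := norm_C (φ := φ) c
  have s1 : Eqv (g * g') (A a * B φ b * C φ c * g') := h.mulR hg'
  have s2 : Eqv (A a * B φ b * C φ c * g') (A a * B φ b * C φ c * (A a' * B φ b' * C φ c')) := h'.mulL _
  have e1 : A a * B φ b * C φ c * (A a' * B φ b' * C φ c') =
      A a * (B φ b * A a') * (C φ c * B φ b' * C φ c') := by
    have := (AC (φ := φ) a' c).eq
    calc A a * B φ b * C φ c * (A a' * B φ b' * C φ c') = A a * B φ b * (C φ c * A a') * (B φ b' * C φ c') := by group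
      _ = A a * B φ b * (A a' * C φ c) * (B φ b' * C φ c') := by rw [this]
      _ = _ := by group
  have s3 : Eqv (A a * (B φ b * A a') * (C φ c * B φ b' * C φ c'))
      (A a * (A a' * B φ b * C φ (a' * b)) * (C φ c * B φ b' * C φ c')) :=
    (eqv_BA h2 ha' b).mid _ (mul_mem (mul_mem nC2 nB) nC)
  have e2 : A a * (A a' * B φ b * C φ (a' * b)) * (C φ c * B φ b' * C φ c') =
      (A a * A a' * B φ b) * (C φ (a' * b + c) * B φ b') * C φ c' := by
    rw [C_add]
    group
  have s4 : Eqv ((A a * A a' * B φ b) * (C φ (a' * b + c) * B φ b') * C φ c')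
      ((A a * A a' * B φ b) * (B φ b' * C φ (a' * b + c)) * C φ c') :=
    (CV.symm (cvCB b' (a' * b + c))).mid _ nC
  have e3 : (A a * A a' * B φ b) * (B φ b' * C φ (a' * b + c)) * C φ c' =
      A (a + a') * B φ (b + b') * C φ (a' * b + c + c') := by
    rw [C_add (a' * b + c) c', B_add, aA]
    group
  rw [e1] at s2
  rw [e2] at s3
  rw [e3] at s4
  exact ((s1.trans s2).trans s3).trans s4

theorem DEZ_mem_V (d e f : K) : D φ d * E e * Z f ∈ V K := by
  have h : ∀ r ∈ LV, ∀ t : K, (xG r t : GL chevD4.Idx K) ∈ V K := fun r hr t => mem_rspan xG (S := {k | k ∈ LV}) hr t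
  unfold D
  exact mul_mem (mul_mem (mul_mem (mul_mem (h 21 (by decide) _) (h 17 (by decide) _)) (h 20 (by decide) _))
    (h 22 (by decide) _)) (h 23 (by decide) _)

theorem P.elt (h2 : ∀ x : K, x + x = 0) (a b c d e f : K) : P φ (elt φ a b c d e f) a b c := by
  unfold P
  rw [elt_eq2 h2]
  unfold Eqv
  have h := inv_mem (DEZ_mem_V (φ := φ) d e f)
  have e1 : (A a * B φ b * C φ c * D φ d * E e * Z f)⁻¹ * (A a * B φ b * C φ c) = (D φ d * E e * Z f)⁻¹ := by group
  rw [e1]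
  exact h

theorem P.A (a : K) : P φ (A a) a 0 0 := by
  unfold P
  rw [B_zero, C_zero, mul_one, mul_one]
  exact Eqv.refl _

theorem P.B (b : K) : P φ (B φ b) 0 b 0 := by
  unfold P
  rw [C_zero, Tri.A, xG_zero, mul_one, one_mul]
  exact Eqv.refl _

/-- the fixed elements of `V` -/
theorem exists_V {v : GL chevD4.Idx K} (hv : v ∈ V K) (hf : v ∈ fix φ) (h2 : ∀ x : K, x + x = 0) :
    ∃ d e f : K, φ e = e ∧ φ f = f ∧ v = D φ d * E e * Z f := by
  obtain ⟨t, rfl⟩ := exists_lprod xG_add (by decide) (good_of_goodB LV (by decide +kernel)) hv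
  let t' : ℕ → K := fun r => if r ∈ LV then t r else 0
  have h1 : (lprod xG LV t : GL chevD4.Idx K) = lprod xG ordA t' := by
    have e1 : (lprod xG LV t : GL chevD4.Idx K) = lprod xG LV t' := lprod_congr xG fun r hr => by simp [t', hr]
    rw [e1]
    have e2 : ordA = [14, 18, 13, 12, 19, 16, 15] ++ LV := rfl
    rw [e2, lprod_append]
    have e3 : (lprod xG [14, 18, 13, 12, 19, 16, 15] t' : GL chevD4.Idx K) = 1 := by
      have : ∀ r ∈ [14, 18, 13, 12, 19, 16, 15], t' r = 0 := by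
        intro r hr
        have : r ∉ LV := by revert hr; revert r; decide
        simp [t', this]
      simp only [List.forall_mem_cons] at this
      obtain ⟨g1, g2, g3, g4, g5, g6, g7, -⟩ := this
      simp only [lprod_cons, lprod_nil, g1, g2, g3, g4, g5, g6, g7, xG_zero, mul_one]
    rw [e3, one_mul]
  rw [h1, lprod_mem_fix_iff] at hf
  have h17 := hf 17 (by decide)
  have h20 := hf 20 (by decide)
  have h22 := hf 22 (by decide)
  have h23 := hf 23 (by decide)
  have k17 : t' 17 = t 17 := rfl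
  have k20 : t' 20 = t 20 := rfl
  have k21 : t' 21 = t 21 := rfl
  have k22 : t' 22 = t 22 := rfl
  have k23 : t' 23 = t 23 := rfl
  simp only [tw, k17, k20, k21, k22, k23, neg2 h2] at h17 h20 h22 h23
  refine ⟨t 21, t 22, t 23, h22.symm, h23.symm, ?_⟩
  unfold LV D
  simp only [lprod_cons, lprod_nil, mul_one]
  rw [h20, h17]
  group

theorem sq_mul {G : Type*} [Group G] {x y : G} (hx : x * x = 1) (hy : y * y = 1) (h : Commute x y) :
    (x * y) * (x * y) = 1 := by
  calc (x * y) * (x * y) = x * (y * x) * y := by group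
    _ = (x * x) * (y * y) := by rw [← h.eq]; group
    _ = 1 := by rw [hx, hy, one_mul]

theorem DB (h2 : ∀ x : K, x + x = 0) (hK3 : ∀ t : K, φ (φ (φ t)) = t) {b d : K} (h : tr φ (b * φ d) = 0) :
    Commute (B φ b) (D φ d) := by
  have := BD h2 hK3 b d
  rw [h, show (E (0 : K) : GL chevD4.Idx K) = 1 from xG_zero 22, mul_one] at this
  exact this

theorem DC (h2 : ∀ x : K, x + x = 0) (hK3 : ∀ t : K, φ (φ (φ t)) = t) {b d : K} (h : tr φ (b * φ d) = 0) :
    Commute (C φ b) (D φ d) := by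
  have := CD h2 hK3 b d
  rw [h, show (Z (0 : K) : GL chevD4.Idx K) = 1 from xG_zero 23, mul_one] at this
  exact this

/-- `φ` fixes the trace -/
theorem tr_fix (hK3 : ∀ t : K, φ (φ (φ t)) = t) (x : K) : φ (tr φ x) = tr φ x := by
  unfold tr
  rw [map_add, map_add, hK3]
  ring

theorem tr_add (x y : K) : tr φ (x + y) = tr φ x + tr φ y := by
  unfold tr
  rw [map_add, map_add]
  ring

theorem tr_phi (hK3 : ∀ t : K, φ (φ (φ t)) = t) (x : K) : tr φ (φ x) = tr φ x := by
  unfold tr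
  rw [hK3]
  ring

/-- the splitting of `d` -/
theorem exists_split (h2 : ∀ x : K, x + x = 0) (hK3 : ∀ t : K, φ (φ (φ t)) = t) {b c : K} (hb : b ≠ 0)
    (hc : ¬ ∃ l : K, φ l = l ∧ c = l * b) (r : K) (hr : φ r = r) :
    ∃ d : K, tr φ (b * φ d) = 0 ∧ tr φ (c * φ d) = r := by
  obtain ⟨w, hw⟩ : ∃ w : K, w = φ b * φ (φ c) + φ (φ b) * φ c := ⟨_, rfl⟩
  have hw0 : w ≠ 0 := by
    intro h0
    apply hc
    have e1 : φ (b * φ c + φ b * c) = 0 := by
      rw [map_add, map_mul, map_mul, ← h0, hw]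
    have e2 : b * φ c + φ b * c = 0 := by
      rwa [← map_zero φ, φ.injective.eq_iff] at e1
    have e3 : b * φ c = φ b * c := by
      have := h2 (φ b * c)
      linear_combination e2 - this
    have hb' : φ b ≠ 0 := by rwa [Ne, map_eq_zero]
    refine ⟨c / b, ?_, ?_⟩
    · rw [map_div₀, div_eq_div_iff hb' hb]
      linear_combination e3
    · field_simp
  obtain ⟨s, hs⟩ : ∃ s : K, s = r * w⁻¹ := ⟨_, rfl⟩
  have hsw : s * w = r := by rw [hs, inv_mul_cancel_right₀ hw0]
  obtain ⟨v, hv⟩ : ∃ v : K, v = φ b * φ (φ s) + φ (φ b) * φ s := ⟨_, rfl⟩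
  have t1 : tr φ (b * v) = 0 := by
    have e1 : b * v = b * φ b * φ (φ s) + φ (φ (b * φ b * φ (φ s))) := by
      simp only [map_mul, hK3, hv]
      ring
    rw [e1, tr_add, tr_phi hK3, tr_phi hK3, h2]
  have t2 : tr φ (c * v) = r := by
    have e1 : c * v = c * φ b * φ (φ s) + c * φ (φ b) * φ s := by
      rw [hv]; ring
    have e2 : s * w = φ (c * φ b * φ (φ s)) + φ (φ (c * φ (φ b) * φ s)) := by
      simp only [map_mul, hK3, hw]
      ring
    have e3 : tr φ (s * w) = tr φ (c * v) := by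
      rw [e2, e1, tr_add, tr_add, tr_phi hK3, tr_phi hK3, tr_phi hK3]
    rw [← e3, hsw]
    unfold tr
    rw [hr, hr, h2, zero_add]
  refine ⟨φ (φ v), ?_, ?_⟩
  · rw [hK3]; exact t1
  · rw [hK3]; exact t2

/-! ### the twisted group -/

variable {q : ℕ} (h2 : ∀ x : K, x + x = 0) (hK3 : ∀ t : K, φ (φ (φ t)) = t) (hφ : ∀ x, φ x = x ^ q)
  (hle : twistedD4 K q ≤ fix φ)

include h2 hK3 hφ hle

theorem mem_tw {a b c d e f : K} (ha : φ a = a) (he : φ e = e) (hf : φ f = f) :
    A a * B φ b * C φ c * D φ d * E e * Z f ∈ twistedD4 K q := by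
  rw [← elt_eq2 h2]
  exact elt_mem hK3 hφ hle ha he hf

theorem memA {a : K} (ha : φ a = a) : A a ∈ twistedD4 K q := xG14_mem hφ ha
theorem memB (b : K) : B φ b ∈ twistedD4 K q := by
  have := mem_tw h2 hK3 hφ hle (a := 0) (b := b) (c := 0) (d := 0) (e := 0) (f := 0) (map_zero φ) (map_zero φ) (map_zero φ)
  simpa only [A, E, Z, xG_zero, C_zero, D_zero, one_mul, mul_one] using this
theorem memC (b : K) : C φ b ∈ twistedD4 K q := by
  have := mem_tw h2 hK3 hφ hle (a := 0) (b := 0) (c := b) (d := 0) (e := 0) (f := 0) (map_zero φ) (map_zero φ) (map_zero φ)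
  simpa only [A, E, Z, xG_zero, B_zero, D_zero, one_mul, mul_one] using this
theorem memD (b : K) : D φ b ∈ twistedD4 K q := by
  have := mem_tw h2 hK3 hφ hle (a := 0) (b := 0) (c := 0) (d := b) (e := 0) (f := 0) (map_zero φ) (map_zero φ) (map_zero φ)
  simpa only [A, E, Z, xG_zero, B_zero, C_zero, one_mul, mul_one] using this
theorem memE {e : K} (he : φ e = e) : E e ∈ twistedD4 K q := by
  have := mem_tw h2 hK3 hφ hle (a := 0) (b := 0) (c := 0) (d := 0) (e := e) (f := 0) (map_zero φ) he (map_zero φ)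
  simpa only [A, Z, xG_zero, B_zero, C_zero, D_zero, one_mul, mul_one] using this
theorem memZ {f : K} (hf : φ f = f) : Z f ∈ twistedD4 K q := by
  have := mem_tw h2 hK3 hφ hle (a := 0) (b := 0) (c := 0) (d := 0) (e := 0) (f := f) (map_zero φ) (map_zero φ) hf
  simpa only [A, E, xG_zero, B_zero, C_zero, D_zero, one_mul, mul_one] using this

/-- a product of two elements with square one -/
theorem sr_of {g s t : GL chevD4.Idx K} (hs : s ∈ twistedD4 K q) (ht : t ∈ twistedD4 K q) (hs2 : s * s = 1)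
    (ht2 : t * t = 1) (hg : g ∈ twistedD4 K q) (h : g = s * t) : SR (⟨g, hg⟩ : twistedD4 K q) := by
  have e : (⟨g, hg⟩ : twistedD4 K q) = ⟨s, hs⟩ * ⟨t, ht⟩ := Subtype.ext h
  rw [e]
  exact sr_of_mul (Subtype.ext hs2) (Subtype.ext ht2)

/-- `c = 0` -/
theorem final1 {a b d e f : K} (ha : φ a = a) (he : φ e = e) (hf : φ f = f) {g : GL chevD4.Idx K}
    (hg : g ∈ twistedD4 K q) (h : g = A a * B φ b * (D φ d * E e * Z f)) : SR (⟨g, hg⟩ : twistedD4 K q) := by
  have ht := tr_fix hK3 (b * φ d)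
  have he' : φ (tr φ (b * φ d) + e) = tr φ (b * φ d) + e := by rw [map_add, ht, he]
  refine sr_of h2 hK3 hφ hle (s := A a * D φ d * Z f) (t := B φ b * E (tr φ (b * φ d) + e))
    (mul_mem (mul_mem (memA h2 hK3 hφ hle ha) (memD h2 hK3 hφ hle d)) (memZ h2 hK3 hφ hle hf))
    (mul_mem (memB h2 hK3 hφ hle b) (memE h2 hK3 hφ hle he')) ?_ ?_ hg ?_
  · exact sq_mul (sq_mul (A_sq h2 a) (D_sq h2 d) (AD a d)) (Z_sq h2 f) ((AZ a f).mul_left (DZ f d).symm)
  · exact sq_mul (B_sq h2 b) (E_sq h2 _) (BE _ _).symm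
  · rw [h, eA]
    calc A a * B φ b * (D φ d * E e * Z f) = A a * (B φ b * D φ d) * E e * Z f := by group
      _ = A a * D φ d * B φ b * E (tr φ (b * φ d)) * (E e * Z f) := by rw [BD h2 hK3]; group
      _ = A a * D φ d * (B φ b * (E (tr φ (b * φ d)) * E e)) * Z f := by group
      _ = A a * D φ d * Z f * (B φ b * (E (tr φ (b * φ d)) * E e)) := by
          have hc : Commute (Z f) (B φ b * (E (tr φ (b * φ d)) * E e)) :=
            (BZ f b).mul_right ((EZ f _).mul_right (EZ f _))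
          rw [mul_assoc, ← hc.eq]
          group

/-- `a = 0`, `b`, `c` independent -/
theorem final2 {b c d e f : K} (hb : b ≠ 0) (hc : ¬ ∃ l : K, φ l = l ∧ c = l * b) (he : φ e = e) (hf : φ f = f)
    {g : GL chevD4.Idx K} (hg : g ∈ twistedD4 K q) (h : g = B φ b * C φ c * D φ d * E e * Z f) :
    SR (⟨g, hg⟩ : twistedD4 K q) := by
  obtain ⟨d₁, h3, h4⟩ := exists_split h2 hK3 hb hc (tr φ (c * φ d)) (tr_fix hK3 _)
  set τ := tr φ (c * φ d₁) with hτ
  have hτf : φ τ = τ := tr_fix hK3 _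
  have h5 : tr φ (c * φ (d₁ + d)) = 0 := by
    rw [map_add, mul_add, tr_add, ← hτ, h4, h2]
  have hf' : φ (τ + f) = τ + f := by rw [map_add, hτf, hf]
  refine sr_of h2 hK3 hφ hle (s := B φ b * D φ d₁ * E e) (t := C φ c * D φ (d₁ + d) * Z (τ + f))
    (mul_mem (mul_mem (memB h2 hK3 hφ hle b) (memD h2 hK3 hφ hle d₁)) (memE h2 hK3 hφ hle he))
    (mul_mem (mul_mem (memC h2 hK3 hφ hle c) (memD h2 hK3 hφ hle _)) (memZ h2 hK3 hφ hle hf')) ?_ ?_ hg ?_
  · exact sq_mul (sq_mul (B_sq h2 b) (D_sq h2 d₁) (DB h2 hK3 h3)) (E_sq h2 e) ((BE e b).symm.mul_left (DE e d₁).symm)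
  · exact sq_mul (sq_mul (C_sq h2 c) (D_sq h2 _) (DC h2 hK3 h5)) (Z_sq h2 _) ((CZ _ c).symm.mul_left (DZ _ _).symm)
  · have e1 : D φ d₁ * C φ c = C φ c * D φ d₁ * Z τ := by
      have := CD h2 hK3 c d₁
      rw [← hτ] at this
      have hz := Z_sq h2 τ
      have hcz : Commute (Z τ) (D φ d₁ * C φ c) := (DZ τ d₁).mul_right (CZ τ c)
      calc D φ d₁ * C φ c = D φ d₁ * C φ c * (Z τ * Z τ) := by rw [hz, mul_one]
        _ = (D φ d₁ * C φ c * Z τ) * Z τ := by group
        _ = C φ c * D φ d₁ * Z τ := by rw [← this]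
    have e2 : D φ d = D φ d₁ * D φ (d₁ + d) := by
      rw [← D_add, ← add_assoc, h2, zero_add]
    have c1 : Commute (E e) (C φ c) := CE e c
    have c2 : Commute (E e) (D φ (d₁ + d)) := DE e _
    have c3 : Commute (Z τ) (D φ (d₁ + d)) := DZ τ _
    have c4 : Commute (Z τ) (E e) := EZ τ e
    have c5 : Z τ * Z τ = (1 : GL chevD4.Idx K) := Z_sq h2 τ
    rw [h, zA]
    symm
    calc B φ b * D φ d₁ * E e * (C φ c * D φ (d₁ + d) * (Z τ * Z f))
        = B φ b * D φ d₁ * (E e * C φ c) * D φ (d₁ + d) * (Z τ * Z f) := by group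
      _ = B φ b * (D φ d₁ * C φ c) * (E e * D φ (d₁ + d)) * (Z τ * Z f) := by rw [c1.eq]; group
      _ = B φ b * C φ c * D φ d₁ * (Z τ * D φ (d₁ + d)) * E e * (Z τ * Z f) := by rw [e1, c2.eq]; group
      _ = B φ b * C φ c * (D φ d₁ * D φ (d₁ + d)) * (Z τ * E e) * (Z τ * Z f) := by rw [c3.eq]; group
      _ = B φ b * C φ c * D φ d * E e * (Z τ * Z τ) * Z f := by rw [← e2, c4.eq]; group
      _ = B φ b * C φ c * D φ d * E e * Z f := by rw [c5, mul_one]

/-- `a = b = 0` -/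
theorem final3 {c d e f : K} (he : φ e = e) (hf : φ f = f)
    {g : GL chevD4.Idx K} (hg : g ∈ twistedD4 K q) (h : g = C φ c * D φ d * E e * Z f) :
    SR (⟨g, hg⟩ : twistedD4 K q) := by
  refine sr_of h2 hK3 hφ hle (s := C φ c * Z f) (t := D φ d * E e)
    (mul_mem (memC h2 hK3 hφ hle c) (memZ h2 hK3 hφ hle hf))
    (mul_mem (memD h2 hK3 hφ hle d) (memE h2 hK3 hφ hle he)) ?_ ?_ hg ?_
  · exact sq_mul (C_sq h2 c) (Z_sq h2 _) (CZ _ _).symm
  · exact sq_mul (D_sq h2 d) (E_sq h2 _) (DE _ _).symm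
  · have hc : Commute (Z f) (D φ d * E e) := (DZ f d).mul_right (EZ f e)
    rw [h]
    calc C φ c * D φ d * E e * Z f = C φ c * ((D φ d * E e) * Z f) := by group
      _ = C φ c * Z f * (D φ d * E e) := by rw [← hc.eq]; group

/-- the elements congruent to `A a * B b` modulo `V` -/
theorem sr_of_P {g : GL chevD4.Idx K} (hg : g ∈ twistedD4 K q) {a b : K} (ha : φ a = a) (h : P φ g a b 0) :
    SR (⟨g, hg⟩ : twistedD4 K q) := by
  have h1 : (A a * B φ b)⁻¹ * g ∈ V K := by
    have := Eqv.symm h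
    unfold Eqv at this
    rwa [C_zero, mul_one] at this
  have h3 : (A a * B φ b)⁻¹ * g ∈ fix φ :=
    hle (mul_mem (inv_mem (mul_mem (memA h2 hK3 hφ hle ha) (memB h2 hK3 hφ hle b))) hg)
  obtain ⟨d, e, f, he, hf, hv⟩ := exists_V h1 h3 h2
  refine final1 h2 hK3 hφ hle (a := a) (b := b) (d := d) ha he hf hg ?_
  rw [← hv]
  group

theorem norm_elt {a b c d e f : K} : elt φ a b c d e f ∈ Subgroup.normalizer (V K : Set (GL chevD4.Idx K)) := by
  have h := DEZ_mem_V (φ := φ) d e f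
  have h' : D φ d * E e * Z f ∈ Subgroup.normalizer (V K : Set (GL chevD4.Idx K)) := Subgroup.le_normalizer h
  have e1 : elt φ a b c d e f = A a * B φ b * C φ c * (D φ d * E e * Z f) := by rw [elt_eq2 h2]; group
  rw [e1]
  exact mul_mem (mul_mem (mul_mem (norm_A a) (norm_B b)) (norm_C c)) h'

/-- **All elements of `U ∩ ³D₄(q)` are strongly real.** -/
theorem sr_elt {a b c d e f : K} (ha : φ a = a) (he : φ e = e) (hf : φ f = f)
    (hg : elt φ a b c d e f ∈ twistedD4 K q) : SR (⟨elt φ a b c d e f, hg⟩ : twistedD4 K q) := by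
  have hP := P.elt (φ := φ) h2 a b c d e f
  have hn := norm_elt h2 hK3 hφ hle (a := a) (b := b) (c := c) (d := d) (e := e) (f := f)
  have hnB : ∀ y : K, (B φ y)⁻¹ = B φ y := fun y => inv_eq_of_mul_eq_one_left (B_sq h2 y)
  have hnA : ∀ y : K, (A y : GL chevD4.Idx K)⁻¹ = A y := fun y => inv_eq_of_mul_eq_one_left (A_sq h2 y)
  by_cases ha0 : a = 0
  · subst ha0
    by_cases hb0 : b = 0
    · subst hb0
      refine final3 h2 hK3 hφ hle (c := c) (d := d) he hf hg ?_
      rw [elt_eq2 h2, B_zero, Tri.A, xG_zero, one_mul, one_mul]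
    · by_cases hc : ∃ l : K, φ l = l ∧ c = l * b
      · obtain ⟨l, hl, hcl⟩ := hc
        have h3 := ((P.A (φ := φ) l).mul h2 hP hn (map_zero φ)).mul h2 (P.A (φ := φ) l) (norm_A l) hl
        have h4 : P φ (A l * elt φ 0 b c d e f * A l) 0 b 0 := by
          convert h3 using 1
          · rw [add_zero, h2]
          · ring
          · rw [hcl]
            linear_combination -(h2 (l * b))
        have hm : A l * elt φ 0 b c d e f * A l ∈ twistedD4 K q :=
          mul_mem (mul_mem (memA h2 hK3 hφ hle hl) hg) (memA h2 hK3 hφ hle hl)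
        have h5 := (sr_of_P h2 hK3 hφ hle hm (map_zero φ) h4).conj ⟨A l, memA h2 hK3 hφ hle hl⟩
        convert h5 using 1
        apply Subtype.ext
        show elt φ 0 b c d e f = A l * (A l * elt φ 0 b c d e f * A l) * (A l)⁻¹
        rw [hnA]
        calc elt φ 0 b c d e f = (A l * A l) * elt φ 0 b c d e f * (A l * A l) := by
              rw [A_sq h2, one_mul, mul_one]
          _ = _ := by group
      · refine final2 h2 hK3 hφ hle hb0 hc (d := d) he hf hg ?_
        rw [elt_eq2 h2, Tri.A, xG_zero, one_mul]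
  · obtain ⟨y, hy⟩ : ∃ y : K, y = a⁻¹ * c := ⟨_, rfl⟩
    have hay : a * y = c := by rw [hy, mul_inv_cancel_left₀ ha0]
    have h3 := ((P.B (φ := φ) y).mul h2 hP hn ha).mul h2 (P.B (φ := φ) y) (norm_B y) (map_zero φ)
    have h4 : P φ (B φ y * elt φ a b c d e f * B φ y) a b 0 := by
      convert h3 using 1
      · ring
      · linear_combination -(h2 y)
      · rw [hay]
        linear_combination -(h2 c)
    have hm : B φ y * elt φ a b c d e f * B φ y ∈ twistedD4 K q :=
      mul_mem (mul_mem (memB h2 hK3 hφ hle y) hg) (memB h2 hK3 hφ hle y)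
    have h5 := (sr_of_P h2 hK3 hφ hle hm ha h4).conj ⟨B φ y, memB h2 hK3 hφ hle y⟩
    convert h5 using 1
    apply Subtype.ext
    show elt φ a b c d e f = B φ y * (B φ y * elt φ a b c d e f * B φ y) * (B φ y)⁻¹
    rw [hnB]
    calc elt φ a b c d e f = (B φ y * B φ y) * elt φ a b c d e f * (B φ y * B φ y) := by
          rw [B_sq h2, one_mul, mul_one]
      _ = _ := by group

/-- **All elements of `U ∩ ³D₄(q)` are strongly real.** -/
theorem sr_mem_U (g : twistedD4 K q) (hg : (g : GL chevD4.Idx K) ∈ chevD4.posUnipotent K) : SR g := by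
  obtain ⟨a, b, c, d, e, f, ha, he, hf, h⟩ := (mem_U_inf_iff hK3 hφ hle g.1).1 ⟨hg, g.2⟩
  have hm : elt φ a b c d e f ∈ twistedD4 K q := h ▸ g.2
  have := sr_elt h2 hK3 hφ hle ha he hf hm (b := b) (c := c) (d := d)
  convert this using 1
  exact Subtype.ext h

end

end Cfsg.Agent.H893.SR.Tri
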